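import Cfsg.Agent.TwoF.DC.TA.Dg
import Cfsg.Agent.TwoF.DC.TA.Iface
import Cfsg.Agent.TwoF.DC.Rep

/-!
# TwoF, defining characteristic, type `A_n` (7): the exterior square of `A_3`, the exterior cube of `A_5`, `CT` (helper97)
-/

set_option autoImplicit false
set_option linter.unusedSectionVars false

namespace Cfsg.Agent.TwoF.DC.TA

open Finset Module
open Cfsg.Agent.H356.TA (Pos)

/-- the three element subsets of `Fin 6` -/
def T5 : List ℕ := [7, 11, 13, 14, 19, 21, 22, 25, 26, 28, 35, 37, 38, 41, 42, 44, 49, 50, 52, 56]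
/-- the two element subsets of `Fin 4` -/
def T3 : List ℕ := [3, 5, 6, 9, 10, 12]
/-- closed under passing to the smaller mirror image -/
def cls (n : ℕ) (g : List ℕ) (l : List (ℕ × ℕ)) : Bool := l.all fun r => !lo n g r || l.contains (n - r.2, n - r.1)

theorem T5_card : ∀ T ∈ T5, (Tset 5 T).card = 3 := by decide +kernel
theorem T5_nodup : (T5.map (Tset 5)).Nodup := by decide +kernel
theorem T3_card : ∀ T ∈ T3, (Tset 3 T).card = 2 := by decide +kernel
theorem T3_nodup : (T3.map (Tset 3)).Nodup := by decide +kernel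

theorem gen5a : ∀ b : Pos 5, fl 5 b = b ∨ lo 5 [1, 2, 0, 0, 0, 0] (vl b) ∨ lo 5 [1, 2, 0, 0, 0, 0] (vl (fl 5 b)) := by
  decide +kernel
theorem gen5b : ∀ b : Pos 5, fl 5 b = b ∨ lo 5 [0, 2, 1, 1, 1, 1] (vl b) ∨ lo 5 [0, 2, 1, 1, 1, 1] (vl (fl 5 b)) := by
  decide +kernel
theorem gen3 : ∀ b : Pos 3, fl 3 b = b ∨ lo 3 [0, 1, 1, 1] (vl b) ∨ lo 3 [0, 1, 1, 1] (vl (fl 3 b)) := by
  decide +kernel

theorem flex5a : go (fun l => !cls 5 [1, 2, 0, 0, 0, 0] l || l.length == 0 || 2 * l.length < cnt T5 l || l.length == 8)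
    (rts 5) [] = true := by decide +kernel
theorem flex5b : go (fun l => !cls 5 [0, 2, 1, 1, 1, 1] l || l.length == 0 || 2 * l.length < cnt T5 l || l.length == 5)
    (rts 5) [] = true := by decide +kernel
theorem flex3 : go (fun l => !cls 3 [0, 1, 1, 1] l || l.length == 0 || l.length < cnt T3 l ||
    (l.length == 3 && l.contains (0, 1) && l.contains (0, 2) && l.contains (0, 3) && !l.contains (2, 3) &&
      !l.contains (1, 3))) (rts 3) [] = true := by decide +kernel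

theorem not_lo_both {n : ℕ} (g : List ℕ) (b : Pos n) (h : lo n g (vl (fl n b)) = true) : lo n g (vl b) = false := by
  have e1 := fl_fst (fl n b)
  have e2 := fl_snd (fl n b)
  rw [fl_fl] at e1 e2
  rw [lo, decide_eq_true_iff] at h
  rw [lo, decide_eq_false_iff_not]
  simp only [vl] at h ⊢
  rw [← e1, ← e2, fl_fst, fl_snd] at h
  omega

section mod

variable {n : ℕ} {R : RC (Fin n) (Pos n)} {p : ℕ} {k L : Type} [Field k] [AddCommGroup L] [Module k L] (hR : IsA R)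
  {H : HW R p k L} [Fact p.Prime] [CharP k p]
include hR

theorem IsA.deg_go {X : Set (Module.End k L)} {S O : Finset (Pos n)} (h : Ops H X S O) {N : Submodule k L}
    (hN : ∀ f ∈ X, N ≤ LinearMap.ker f) (g : List ℕ) (hg : ∀ b : Pos n, fl n b = b ∨ lo n g (vl b) ∨ lo n g (vl (fl n b)))
    {i : Fin n} (hi : H.lam i ≠ 0) {Ts : List ℕ} (h1 : ∀ T ∈ Ts, (Tset n T).card = i + 1) (h2 : (Ts.map (Tset n)).Nodup)
    {test : List (ℕ × ℕ) → Bool} (ht : go test (rts n) [] = true) :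
    ∃ l, test l = true ∧ l.length = S.card + O.card ∧ cnt Ts l ≤ H.d - finrank k N ∧ cls n g l = true ∧
      (∀ b ∈ S, vl b ∈ l) ∧ ∀ b : Pos n, vl b ∈ l → b ∈ S ∨ (lo n g (vl (fl n b)) = true ∧
        ∃ x y : k, x ≠ 0 ∧ y ≠ 0 ∧ x • H.E (true, b) 1 + y • H.E (true, fl n b) 1 ∈ X) := by
  obtain ⟨S', a1, a2, a3, a4, a5⟩ := hR.deg h hN g hg
  obtain ⟨l, b1, b2, b3⟩ := go_fin S' a2 ht
  refine ⟨l, b1, b2.trans a1, (hR.cnt_le H hi h1 h2 b3).trans (Nat.sub_le_sub_left a3 _), ?_,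
    fun b hb => (b3 _).2 ⟨b, a4 hb, rfl⟩, fun b hb => ?_⟩
  · refine List.all_eq_true.2 fun r hr => ?_
    obtain ⟨b, hb, rfl⟩ := (b3 r).1 hr
    rcases a5 b hb with e | e
    · rw [← vl_fl, List.contains_iff_mem.2 ((b3 _).2 ⟨_, a4 (h.S_fl b e), rfl⟩), Bool.or_true]
    · rw [not_lo_both g b e.1]; rfl
  · obtain ⟨b', hb', e⟩ := (b3 _).1 hb
    obtain rfl := vl_inj e
    exact a5 b' hb'

end mod

section small

variable {p : ℕ} {k L : Type} [Field k] [AddCommGroup L] [Module k L] [Fact p.Prime] [CharP k p]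

theorem no_flex5 {R : RC (Fin 5) (Pos 5)} (hR : IsA R) {H : HW R p k L} (hl : Sg H.lam 2) {X : Set (Module.End k L)}
    {S O : Finset (Pos 5)} (h : Ops H X S O) {N : Submodule k L} (hN : ∀ f ∈ X, N ≤ LinearMap.ker f)
    (h0 : S.card + O.card ≠ 0) : 2 * (S.card + O.card) < H.d - finrank k N := by
  obtain ⟨i, hi, hl⟩ := hl.ne
  obtain ⟨l, a1, a2, a3, a4, -⟩ := hR.deg_go h hN _ gen5a hl (by rw [hi]; exact T5_card) T5_nodup flex5a
  obtain ⟨l', b1, b2, b3, b4, -⟩ := hR.deg_go h hN _ gen5b hl (by rw [hi]; exact T5_card) T5_nodup flex5b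
  simp only [a4, b4, Bool.not_true, Bool.false_or, Bool.or_eq_true, beq_iff_eq, decide_eq_true_iff] at a1 b1
  omega

variable {R : RC (Fin 3) (Pos 3)} (hR : IsA R) {H : HW R p k L} (hl : H.lam = Pi.single 1 1)
include hR

theorem comm3 : H.E (true, r3 1 3) 1 * H.E (true, r3 0 2) 1 = H.E (true, r3 0 2) 1 * H.E (true, r3 1 3) 1 :=
  H.comm_of_ab (S := {r3 0 2, r3 1 3}) ((hR.ab_iff (Fact.out : p.Prime).ne_one _).2 (by decide)) (by decide) (by decide)

include hl

theorem exists_ind (T : Finset (Fin 4)) (hT : T.card = 2) : ∃ v ∈ H.w (tw (ind T)), v ≠ 0 :=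
  H.isWt_iff.1 (hR.ext_ind hl hT).isWt

theorem no_flex3 (hp : p ≠ 2) {X : Set (Module.End k L)} {S O : Finset (Pos 3)} (h : Ops H X S O) {N : Submodule k L}
    (hN : ∀ f ∈ X, N ≤ LinearMap.ker f) (h0 : S.card + O.card ≠ 0) : S.card + O.card < H.d - finrank k N := by
  obtain ⟨l, a1, a2, a3, a4, a5, a6⟩ := hR.deg_go h hN _ gen3 (i := 1) (by rw [hl]; simp) T3_card T3_nodup flex3
  simp only [a4, Bool.not_true, Bool.false_or, Bool.or_eq_true, beq_iff_eq, decide_eq_true_iff, Bool.and_eq_true,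
    List.contains_iff_mem, Bool.not_eq_true', ← Bool.not_eq_true] at a1
  rcases a1 with (e | e) | ⟨⟨⟨⟨⟨e0, e1⟩, e2⟩, e3⟩, e4⟩, e5⟩
  · omega
  · omega
  obtain ⟨-, x, x', hx, hx', hX⟩ := (a6 (r3 0 1) e1).resolve_left fun e => e4 (a5 _ (h.S_fl _ e))
  obtain ⟨-, y, y', hy, hy', hY⟩ := (a6 (r3 0 2) e2).resolve_left fun e => e5 (a5 _ (h.S_fl _ e))
  obtain ⟨z, hz, hZ⟩ := h.S_op _ ((a6 (r3 0 3) e3).resolve_right fun e => absurd e.1 (by decide))
  rw [show fl 3 (r3 0 1) = r3 2 3 by decide] at hX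
  rw [show fl 3 (r3 0 2) = r3 1 3 by decide] at hY
  obtain ⟨v, hv, v0⟩ := exists_ind hR hl {2, 3} rfl
  obtain ⟨u, hu, u0⟩ := exists_ind hR hl {1, 3} rfl
  have ha := hR.E_ind_w H (T' := {0, 3}) (b := r3 0 2) (by decide) hv
  have hb := hR.E_ind_w H (T' := {1, 2}) (b := r3 1 3) (by decide) hv
  have a0 := hR.E_ind_ne hl (T := {2, 3}) rfl (b := r3 0 2) (by decide) hv v0
  have c1 : H.E (true, r3 1 3) 1 (H.E (true, r3 0 2) 1 v) = H.E (true, r3 0 2) 1 (H.E (true, r3 1 3) 1 v) :=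
    LinearMap.congr_fun (comm3 hR) v
  have c2 := LinearMap.congr_fun (h.comm _ hX _ hY).eq v
  simp only [Module.End.mul_apply, LinearMap.add_apply, LinearMap.smul_apply,
    hR.E_ind_zero hl (T := {2, 3}) rfl (b := r3 0 1) (by decide) hv,
    hR.E_ind_zero hl (T := {2, 3}) rfl (b := r3 2 3) (by decide) hv, smul_zero, add_zero, map_zero, map_add, map_smul,
    hR.E_ind_zero hl (T := {0, 3}) rfl (b := r3 0 1) (by decide) ha,
    hR.E_ind_zero hl (T := {1, 2}) rfl (b := r3 2 3) (by decide) hb, zero_add] at c2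
  have h4 := H.fd
  have h5 := card_add_le N ![H.E (true, r3 0 2) 1 v, H.E (true, r3 1 3) 1 v, u, v] fun c hc => by
    simp only [Fin.sum_univ_four, Matrix.cons_val] at hc
    have z1 := hN _ hZ hc
    simp only [LinearMap.mem_ker, LinearMap.smul_apply, map_add, map_smul,
      hR.E_ind_zero hl (T := {0, 3}) rfl (b := r3 0 3) (by decide) ha,
      hR.E_ind_zero hl (T := {1, 2}) rfl (b := r3 0 3) (by decide) hb, smul_zero, zero_add] at z1
    have wu := hR.E_ind_w H (T' := {0, 1}) (b := r3 0 3) (by decide) hu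
    have wv := hR.E_ind_w H (T' := {0, 2}) (b := r3 0 3) (by decide) hv
    have z2 := congrArg (H.pr (tw (ind {0, 1}))) z1
    have z3 := congrArg (H.pr (tw (ind {0, 2}))) z1
    simp only [map_add, map_smul, map_zero, H.pr_of_mem wu, H.pr_of_mem wv, H.pr_of_ne wu (ν := tw (ind {0, 2})) (by decide),
      H.pr_of_ne wv (ν := tw (ind {0, 1})) (by decide), smul_zero, add_zero, zero_add, smul_eq_zero, hz,
      hR.E_ind_ne hl (T := {1, 3}) rfl (b := r3 0 3) (by decide) hu u0,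
      hR.E_ind_ne hl (T := {2, 3}) rfl (b := r3 0 3) (by decide) hv v0, or_false] at z2 z3
    rw [z2, z3, zero_smul, zero_smul, add_zero, add_zero] at hc
    have x1 := hN _ hX hc
    have y1 := hN _ hY hc
    simp only [LinearMap.mem_ker, LinearMap.add_apply, LinearMap.smul_apply, map_add, map_smul,
      hR.E_ind_zero hl (T := {0, 3}) rfl (b := r3 0 1) (by decide) ha,
      hR.E_ind_zero hl (T := {1, 2}) rfl (b := r3 2 3) (by decide) hb,
      hR.E_ind_zero hl (T := {0, 3}) rfl (b := r3 0 2) (by decide) ha,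
      hR.E_ind_zero hl (T := {1, 2}) rfl (b := r3 1 3) (by decide) hb, smul_zero, add_zero, zero_add, ← c1] at x1 y1
    have e6 := hR.E_ind_ne hl (T := {0, 3}) rfl (b := r3 2 3) (by decide) ha a0
    have e7 := hR.E_ind_ne hl (T := {0, 3}) rfl (b := r3 1 3) (by decide) ha a0
    have e8 : (c 0 * y' - c 1 * y) * x' = 0 := (smul_eq_zero.1 (show ((c 0 * y' - c 1 * y) * x') •
      H.E (true, r3 2 3) 1 (H.E (true, r3 0 2) 1 v) = 0 by linear_combination (norm := module) y' • x1 - c 1 • c2)).resolve_right e6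
    have e9 : c 0 * y' + c 1 * y = 0 := (smul_eq_zero.1 (show (c 0 * y' + c 1 * y) •
      H.E (true, r3 1 3) 1 (H.E (true, r3 0 2) 1 v) = 0 by linear_combination (norm := module) y1)).resolve_right e7
    have two : (2 : k) ≠ 0 := fun e => hp ((Nat.prime_dvd_prime_iff_eq Fact.out Nat.prime_two).1
      ((CharP.cast_eq_zero_iff k p 2).1 (by exact_mod_cast e)))
    have e10 := (mul_eq_zero.1 e8).resolve_right hx'
    have e11 : c 0 = 0 := by
      have : 2 * (c 0 * y') = 0 := by linear_combination e9 + e10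
      simpa [two, hy'] using this
    have e12 : c 1 = 0 := by
      have : 2 * (c 1 * y) = 0 := by linear_combination e9 - e10
      simpa [two, hy] using this
    intro i
    fin_cases i
    exacts [e11, e12, z2, z3]
  rw [Fintype.card_fin] at h5
  unfold HW.d
  omega

end small

section rep

variable {p : ℕ} {k G : Type} [Field k] [Group G]

theorem rho_min {n : ℕ} {D : RDat p (Fin n) (Pos n) k G} {L : Type} [AddCommGroup L] [Module k L] {H : HW D.R p k L}
    (r : H.Rep D) (hm : H.Min) (b : Pos n) (t : k) (v : L) : r.ρ (D.z b t) v = v + t • H.E (true, b) 1 v := by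
  rw [r.ρ_z, finsum_eq_sum_of_support_subset _ (s := range 2) fun m hm' => by
    by_contra e
    exact hm' (by show _ • _ = 0; rw [hm.E_eq_zero _ (by rw [mem_coe, mem_range] at e; omega), smul_zero])]
  simp [sum_range_succ, H.E_zero]

variable [Fact p.Prime] [CharP k p] {D : RDat p (Fin 3) (Pos 3) k G} (hR : IsA D.R)
include hR

theorem cod_le_three (hp : p = 2) {L : Type} [AddCommGroup L] [Module k L] {H : HW D.R p k L} (r : H.Rep D)
    (hl : H.lam = Pi.single 1 1) (hc : Commute (D.z (r3 0 1) 1 * D.z (r3 2 3) 1) (D.z (r3 0 2) 1 * D.z (r3 1 3) 1))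
    {B : Subgroup G} (hB : ∀ x ∈ B, ∃ s t u : k,
      x = D.z (r3 0 1) s * D.z (r3 2 3) s * (D.z (r3 0 2) t * D.z (r3 1 3) t) * D.z (r3 0 3) u) : cod r.ρ B ≤ 3 := by
  have hm := hR.min_single H hl
  have rho2 : ∀ b b' s u, r.ρ (D.z b s * D.z b' s) u =
      u + s • (H.E (true, b) 1 u + H.E (true, b') 1 u) + (s * s) • H.E (true, b) 1 (H.E (true, b') 1 u) := by
    intro b b' s u
    rw [map_mul, Module.End.mul_apply, rho_min r hm, rho_min r hm, map_add, map_smul]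
    module
  have fix : ∀ u, H.E (true, r3 0 1) 1 u + H.E (true, r3 2 3) 1 u = 0 → H.E (true, r3 0 1) 1 (H.E (true, r3 2 3) 1 u) = 0 →
      H.E (true, r3 0 2) 1 u + H.E (true, r3 1 3) 1 u = 0 → H.E (true, r3 0 2) 1 (H.E (true, r3 1 3) 1 u) = 0 →
      H.E (true, r3 0 3) 1 u = 0 → u ∈ fx r.ρ B := by
    intro u h1 h2 h3 h4 h5 x hx
    obtain ⟨s, t, w, rfl⟩ := hB x hx
    rw [map_mul, map_mul, Module.End.mul_apply, Module.End.mul_apply, rho_min r hm, h5, smul_zero, add_zero, rho2 (r3 0 2), h3, h4,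
      smul_zero, smul_zero, add_zero, add_zero, rho2, h1, h2, smul_zero, smul_zero, add_zero, add_zero]
  have z0 : ∀ u ∈ H.w (tw (ind {0, 1})), ∀ b, H.E (true, b) 1 u = 0 :=
    fun u hu b => hR.E_ind_zero hl (T := {0, 1}) rfl (by revert b; decide) hu
  have z2 : ∀ u ∈ H.w (tw (ind {0, 2})), ∀ b, b ≠ r3 1 2 → H.E (true, b) 1 u = 0 :=
    fun u hu b hb => hR.E_ind_zero hl (T := {0, 2}) rfl (by revert b; decide) hu
  obtain ⟨v, hv, v0⟩ := exists_ind hR hl {2, 3} rfl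
  obtain ⟨u, hu, u0⟩ := exists_ind hR hl {0, 1} rfl
  obtain ⟨u', hu', u0'⟩ := exists_ind hR hl {0, 2} rfl
  have ha := hR.E_ind_w H (T' := {0, 3}) (b := r3 0 2) (by decide) hv
  have hb := hR.E_ind_w H (T' := {1, 2}) (b := r3 1 3) (by decide) hv
  have a0 := hR.E_ind_ne hl (T := {2, 3}) rfl (b := r3 0 2) (by decide) hv v0
  have c1 : H.E (true, r3 1 3) 1 (H.E (true, r3 0 2) 1 v) = H.E (true, r3 0 2) 1 (H.E (true, r3 1 3) 1 v) :=
    LinearMap.congr_fun (comm3 hR) v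
  have wc := hR.E_ind_w H (T' := {0, 1}) (b := r3 0 2) (by decide) hb
  have wd := hR.E_ind_w H (T' := {0, 2}) (b := r3 2 3) (by decide) ha
  have a1 := hR.E_ind_zero hl (T := {0, 3}) rfl (b := r3 0 1) (by decide) ha
  have a2 := hR.E_ind_zero hl (T := {0, 3}) rfl (b := r3 0 2) (by decide) ha
  have a3 := hR.E_ind_zero hl (T := {0, 3}) rfl (b := r3 0 3) (by decide) ha
  have b1 := hR.E_ind_zero hl (T := {1, 2}) rfl (b := r3 2 3) (by decide) hb
  have b2 := hR.E_ind_zero hl (T := {1, 2}) rfl (b := r3 1 3) (by decide) hb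
  have b3 := hR.E_ind_zero hl (T := {1, 2}) rfl (b := r3 0 3) (by decide) hb
  have c2 := congrArg (fun g => r.ρ g v) hc.eq
  simp only [map_mul _ (D.z (r3 0 1) 1 * _), map_mul _ (D.z (r3 0 2) 1 * _), Module.End.mul_apply, rho2, one_smul, mul_one,
    hR.E_ind_zero hl (T := {2, 3}) rfl (b := r3 0 1) (by decide) hv,
    hR.E_ind_zero hl (T := {2, 3}) rfl (b := r3 2 3) (by decide) hv, add_zero, map_zero, map_add, a1, b1, zero_add,
    z0 _ wc, z2 _ wd (r3 0 1) (by decide)] at c2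
  have two : (2 : k) = 0 := by subst hp; exact_mod_cast CharP.cast_eq_zero k 2
  have f1 := fix u (by rw [z0 u hu, z0 u hu, add_zero]) (by rw [z0 u hu, map_zero]) (by rw [z0 u hu, z0 u hu, add_zero])
    (by rw [z0 u hu, map_zero]) (z0 u hu _)
  have f2 := fix u' (by rw [z2 u' hu' _ (by decide), z2 u' hu' _ (by decide), add_zero])
    (by rw [z2 u' hu' (r3 2 3) (by decide), map_zero]) (by rw [z2 u' hu' _ (by decide), z2 u' hu' _ (by decide), add_zero])
    (by rw [z2 u' hu' (r3 1 3) (by decide), map_zero]) (z2 u' hu' _ (by decide))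
  have f3 := fix (H.E (true, r3 0 2) 1 v + H.E (true, r3 1 3) 1 v)
    (by rw [map_add, map_add, a1, b1]; linear_combination (norm := module) c2)
    (by rw [map_add, b1, add_zero, z2 _ wd _ (by decide)])
    (by rw [map_add, map_add, a2, b2, c1, zero_add, add_zero, ← two_smul k, two, zero_smul])
    (by rw [map_add, b2, add_zero, c1, z0 _ wc]) (by rw [map_add, a3, b3, add_zero])
  have h4 := H.fd
  have h5 : LinearIndependent k (![⟨u, f1⟩, ⟨u', f2⟩, ⟨_, f3⟩] : Fin 3 → fx r.ρ B) := by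
    refine Fintype.linearIndependent_iff.2 fun c hc => ?_
    have h6 := congrArg Subtype.val hc
    simp only [Fin.sum_univ_three, Matrix.cons_val, Submodule.coe_add, Submodule.coe_smul, Submodule.coe_zero] at h6
    have y1 := congrArg (H.pr (tw (ind {0, 1}))) h6
    have y2 := congrArg (H.pr (tw (ind {0, 2}))) h6
    have y3 := congrArg (H.pr (tw (ind {0, 3}))) h6
    simp only [map_add, map_smul, map_zero, H.pr_of_mem hu, H.pr_of_mem hu', H.pr_of_mem ha,
      H.pr_of_ne hu (ν := tw (ind {0, 2})) (by decide), H.pr_of_ne hu (ν := tw (ind {0, 3})) (by decide),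
      H.pr_of_ne hu' (ν := tw (ind {0, 1})) (by decide), H.pr_of_ne hu' (ν := tw (ind {0, 3})) (by decide),
      H.pr_of_ne ha (ν := tw (ind {0, 1})) (by decide), H.pr_of_ne ha (ν := tw (ind {0, 2})) (by decide),
      H.pr_of_ne hb (ν := tw (ind {0, 1})) (by decide), H.pr_of_ne hb (ν := tw (ind {0, 2})) (by decide),
      H.pr_of_ne hb (ν := tw (ind {0, 3})) (by decide), smul_zero, add_zero, zero_add, smul_eq_zero, u0, u0', a0,
      or_false] at y1 y2 y3
    intro i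
    fin_cases i
    exacts [y1, y2, y3]
  have h6 := h5.fintype_card_le_finrank
  have h7 := hR.d_single_le H hl
  rw [Fintype.card_fin] at h6
  have : Nat.choose (3 + 1) ((1 : Fin 3) + 1) = 6 := rfl
  unfold cod; unfold HW.d at h7
  omega

theorem goodT3 (hp : p = 2) {σ : Equiv.Perm (Fin 3)} (F : Fam D σ) (hd : ∀ j, F.dbl j = false)
    (hJ : Fintype.card F.J ≤ 2) (hl : ∀ j, Sg (F.H j).lam 1) {T : Type} [Group T] [Finite T] {φ : T →* G} {f : ℕ}
    (hf : 0 < f) (h : Sub3 D φ f) : F.GoodT φ f := by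
  obtain ⟨hc, B, b1, b2, b3⟩ := h
  have hl' : ∀ j, (F.H j).lam = Pi.single 1 1 := fun j => by
    obtain ⟨i, h1, h2⟩ := hl j
    rwa [show i = 1 from Fin.ext h1] at h2
  have hB : ∀ x ∈ B.map φ, ∃ s t u : k,
      x = D.z (r3 0 1) s * D.z (r3 2 3) s * (D.z (r3 0 2) t * D.z (r3 1 3) t) * D.z (r3 0 3) u := by
    rintro _ ⟨x, hx, rfl⟩; exact b3 x hx
  refine ⟨B, b1, ?_, fun j _ => ?_, fun j hj => (by rw [hd j] at hj; cases hj), ?_⟩
  · rintro rfl
    have := Nat.one_lt_pow (n := 3) (by omega) (Nat.one_lt_pow hf.ne' (Fact.out : p.Prime).one_lt)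
    rw [Subgroup.card_bot] at b2; omega
  · have h1 := (F.rep j).cub (S := {r3 0 1, r3 2 3, r3 0 2, r3 1 3, r3 0 3}) ((F.H j).cubic_of_lev _ ![1, 0, 1] (t := 1)
      (lo := 0) (by unfold RC.hv; rw [hR.cf]; decide) fun μ hμ => by
        have a0 := hR.dep_le_lv _ hμ 0
        have a2 := hR.dep_le_lv _ hμ 2
        have b0 := (F.H j).dep_nonneg hμ 0
        have b2 := (F.H j).dep_nonneg hμ 2
        rw [(hl j).lv] at a0 a2
        simp only [HW.lev, DC.hd, Fin.sum_univ_three, Matrix.cons_val]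
        simp only [Fin.val_zero, Fin.val_two] at a0 a2
        omega)
    have h2 : B.map φ ≤ Subgroup.closure {g | ∃ b ∈ ({r3 0 1, r3 2 3, r3 0 2, r3 1 3, r3 0 3} : Finset (Pos 3)), ∃ t,
        g = D.z b t} := fun x hx => by
      obtain ⟨s, t, u, rfl⟩ := hB x hx
      refine mul_mem (mul_mem (mul_mem ?_ ?_) (mul_mem ?_ ?_)) ?_ <;> exact Subgroup.subset_closure ⟨_, by decide, _, rfl⟩
    exact fun a ha b hb c hc => h1 a (h2 ha) b (h2 hb) c (h2 hc)
  · have h1 : F.valB (B.map φ) ≤ 3 * 4 := (sum_le_card_nsmul _ _ 6 fun j _ => by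
      have := cod_le_three hR hp (F.rep j) (hl' j) hc hB
      rw [hd j, if_neg (by simp)]; omega).trans (by rw [card_univ, smul_eq_mul]; omega)
    refine (Nat.pow_le_pow_right (pow_pos (Fact.out : p.Prime).pos _) h1).trans ?_
    rw [pow_mul]
    exact Nat.pow_le_pow_left b2 _

end rep

section ct

variable {p n : ℕ} {k G : Type} [Field k] [Group G] {D : RDat p (Fin n) (Pos n) k G} [Fact p.Prime] [CharP k p]

theorem flex_ops {σ : Equiv.Perm (Fin n)} {F : Fam D σ} (h : F.Flex (fl n)) : ∃ (S O : Finset (Pos n))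
    (X : ∀ j, Set (Module.End k (F.L j))) (N : ∀ j, Submodule k (F.L j)), S.card + O.card ≠ 0 ∧
    (∀ j, Ops (F.H j) (X j) S O ∧ ∀ f ∈ X j, N j ≤ LinearMap.ker f) ∧
    ∑ j, 2 * ((F.H j).d - finrank k (N j)) ≤ 4 * (S.card + O.card) := by
  obtain ⟨S, O, c, h1, h2, h3, h4, h5⟩ := h
  refine ⟨S, O, _, _, fun e => ?_, fun j => ⟨⟨h4 j, h1, fun b hb => ⟨1, one_ne_zero, Or.inl ⟨b, hb, one_smul _ _⟩⟩,
    fun o ho => ⟨(h2 o ho).1, (h2 o ho).2.1, (h2 o ho).2.2.1⟩,
    fun o ho => ⟨1, c o, one_ne_zero, (h2 o ho).2.2.2, Or.inr ⟨o, ho, by rw [one_smul]⟩⟩⟩, ?_⟩, h5⟩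
  · have := card_union_le S O
    have := card_pos.2 h3
    omega
  · rintro f (⟨b, hb, rfl⟩ | ⟨o, ho, rfl⟩)
    · exact fun v hv => (F.H j).mem_kerL.1 hv.1 b hb
    · exact inf_le_right.trans (iInf₂_le o ho)

variable [Infinite k] {T S : Type} [Group T] [Finite T] [Group S] {M : Std D T S} (hM : StdA M)
include hM

theorem StdA.good {F : Fam D (M.gι M.σ)} (h : M.σ = 1) {κ : Fin n} (h' : F.val (MM κ) ≤ 4 * (MM κ).card) : M.Q F :=
  Or.inl (good_MM F hM.isA (fun b hb => by rw [h, map_one]; exact hb) h')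

theorem StdA.ct : CT D (fun _ => True) (M.gι M.σ) (M.gΦ M.σ) M.Q := by
  intro F _ hT hF S' h1 h2 h3 h4
  obtain ⟨κ, h5⟩ := exists_val F hM.isA hT h1 h2 h3 h4
  rcases hM.gr M.σ with e | ⟨hn, e1, e2⟩
  · exact hM.good e h5
  have e3 : M.σ ≠ 1 := fun e => by
    rw [e, map_one] at e1
    have := congrArg (fun π : Equiv.Perm (Fin n) => ((π ⟨0, by omega⟩ : Fin n) : ℕ)) e1
    simp only [Equiv.Perm.one_apply, Fin.revPerm_apply, Fin.val_rev] at this
    omega
  rcases ct_tw F hM.isA hn e1 h5 with h6 | ⟨hd, h6⟩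
  · exact Or.inl (e2 ▸ h6)
  obtain ⟨S0, O, X, N, a1, a2, a3⟩ := flex_ops (e2 ▸ hF (by rw [e2]; exact Equiv.ext fl_fl) hd)
  rcases h6 with ⟨rfl, j, h6⟩ | ⟨rfl, h6, h7⟩
  · have b1 := no_flex5 hM.isA h6 (a2 j).1 (a2 j).2 a1
    have b2 := single_le_sum (f := fun j => 2 * ((F.H j).d - finrank k (N j))) (fun _ _ => Nat.zero_le _) (mem_univ j)
    omega
  by_cases hp : p = 2
  · exact Or.inr (goodT3 hM.isA hp F hd h6.le h7 M.f_pos ((sub3'_iff _ _ _).1 (hM.sub hp e3)))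
  have b1 := card_nsmul_le_sum univ (fun j => 2 * ((F.H j).d - finrank k (N j))) (2 * (S0.card + O.card + 1)) fun j _ => by
    obtain ⟨i, c1, c2⟩ := h7 j
    rw [show i = 1 from Fin.ext c1] at c2
    have := no_flex3 hM.isA c2 hp (a2 j).1 (a2 j).2 a1
    omega
  rw [card_univ, h6, smul_eq_mul] at b1
  omega

end ct

end Cfsg.Agent.TwoF.DC.TA
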